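import Cfsg.Agent.H560.TwoM
import Cfsg.Agent.H419.Row
import Cfsg.Agent.H713.Spor.M
import Cfsg.Agent.H620.PNorm

/-!
# The Monster has a character of 11-defect zero (helper854)

helper816's degree `49609712911192813665` is divisible by `11 ^ 2`.
-/

set_option autoImplicit false
set_option maxRecDepth 100000

namespace Cfsg.Agent.H854.Loc.M11DZ

open Cfsg Cfsg.Agent.H665.NoPQ

universe u

/-- a character of 11-defect zero of the Monster -/
theorem hasDZ_eleven {K : Type u} [Group K] [Finite K] (h : Spor.IsoM K) : HasDZ 11 K := by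
  obtain ⟨χ, hχ⟩ := H560.TwoM.deg_m h 49609712911192813665 (by decide)
  refine Cfsg.Agent.H419.Row.dz_of_dvd (n := 2) χ (by rw [hχ]; norm_num) ?_ (by norm_num)
  rw [H713.Spor.M.card_eq h]
  have h11 : Nat.Prime 11 := by norm_num
  rw [show (808017424794512875886459904961710757005754368000000000 : ℕ) =
    11 ^ 2 * 6677829956979445255259999214559593033105408000000000 * 1 by norm_num]
  rw [mul_one, Nat.factorization_mul (by norm_num) (by norm_num), Finsupp.add_apply, h11.factorization_pow,
    Finsupp.single_eq_same, Nat.factorization_eq_zero_of_not_dvd (by norm_num)]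

/-- **S4555, S4559: the Monster, `p = 11`.** -/
theorem m_11 {K : Type u} [Group K] (h : Spor.IsoM K) : Cfsg.Agent.H620.PNorm.VOrdP 11 K := by
  have hf : Finite K := Nat.finite_of_card_ne_zero (by rw [H713.Spor.M.card_eq h]; norm_num)
  have : Fact (Nat.Prime 11) := ⟨by norm_num⟩
  obtain ⟨x, hx⟩ := exists_prime_orderOf_dvd_card' (G := K) 11 (by rw [H713.Spor.M.card_eq h]; norm_num)
  exact ⟨x, hx, H713.HasDZ.vz (hasDZ_eleven h) (by rw [hx])⟩

end Cfsg.Agent.H854.Loc.M11DZ
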